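import Cfsg.Agent.H917.FP.Num
import Cfsg.Agent.H920.FP.Theta
import Cfsg.Agent.LieClassical.SLGen

/-!
The chain of doubling steps in matrix form (S5717).
-/

set_option autoImplicit false
set_option linter.unusedSectionVars false
set_option linter.unusedVariables false

namespace Cfsg.Agent.H917.FP

open Module Matrix
open LinearEquiv (transvection)
open Cfsg.Agent.H920.FP (blk low)

universe u v w x

section TVmat

variable {F : Type u} [Field F] {ι : Type w} [Fintype ι] [DecidableEq ι]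

theorem det_of_mem_TV {V : Type*} [AddCommGroup V] [Module F V] [FiniteDimensional F V]
    {g : V ≃ₗ[F] V} (hg : g ∈ TV F V) : LinearMap.det (g : V →ₗ[F] V) = 1 := by
  have h1 : TV F V ≤ (LinearEquiv.det (R := F) (M := V)).ker := by
    unfold TV
    rw [Subgroup.closure_le]
    rintro _ ⟨f, v, hf, rfl⟩
    exact LinearEquiv.transvection.det_eq_one hf
  have h2 := h1 hg
  have h3 : LinearEquiv.det g = 1 := h2
  rw [← LinearEquiv.coe_det, h3]; rfl

/-- the matrix of an element of `TV F (ι → F)`. -/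
noncomputable def toSL : TV F (ι → F) →* SpecialLinearGroup ι F where
  toFun g := ⟨LinearMap.toMatrix' ((g : (ι → F) ≃ₗ[F] (ι → F)) : (ι → F) →ₗ[F] (ι → F)), by
    rw [LinearMap.det_toMatrix']
    exact det_of_mem_TV g.2⟩
  map_one' := by
    apply Subtype.ext
    exact LinearMap.toMatrix'_id
  map_mul' g h := by
    apply Subtype.ext
    exact LinearMap.toMatrix'_comp _ _

theorem toSL_mulVec (g : TV F (ι → F)) (x : ι → F) :
    (toSL g : Matrix ι ι F) *ᵥ x = (g : (ι → F) ≃ₗ[F] (ι → F)) x := by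
  change LinearMap.toMatrix' ((g : (ι → F) ≃ₗ[F] (ι → F)) : (ι → F) →ₗ[F] (ι → F)) *ᵥ x = _
  rw [← Matrix.toLin'_apply, Matrix.toLin'_toMatrix']
  rfl

theorem toSL_surjective : Function.Surjective (toSL (F := F) (ι := ι)) := by
  rw [← MonoidHom.range_eq_top, eq_top_iff, ← Cfsg.Agent.LieClassical.SLGen.closure_transvections,
    Subgroup.closure_le]
  rintro _ ⟨i, j, hij, c, rfl⟩
  -- the transvection `x ↦ x + x j • (c e_i)`
  have h1 : (LinearMap.proj j : Dual F (ι → F)) (Pi.single i c) = 0 := by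
    simp [hij.symm]
  refine ⟨tt h1, ?_⟩
  apply Subtype.ext
  have h2 : ∀ x : ι → F, (toSL (tt h1) : Matrix ι ι F) *ᵥ x =
      (SpecialLinearGroup.transvection hij c : SpecialLinearGroup ι F).1 *ᵥ x := by
    intro x
    rw [toSL_mulVec]
    change transvection h1 x = (Matrix.transvection i j c) *ᵥ x
    rw [tv_apply, Matrix.transvection, Matrix.add_mulVec, Matrix.one_mulVec]
    congr 1
    ext k
    simp [Matrix.single_mulVec, Pi.single_apply, mul_comm, Function.update_apply]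
  exact Matrix.ext_of_mulVec_single fun i => h2 _

end TVmat

section sl2K

variable {F : Type u} [Field F] {K : Type v} [Field K] [Algebra F K]
variable {J : Type w} [Fintype J] [DecidableEq J]

/-- the block matrix of a `2 × 2` matrix over `K`. -/
noncomputable def bm (b : Basis J F K) : Matrix (Fin 2) (Fin 2) K →* Matrix (J ⊕ J) (J ⊕ J) F where
  toFun g := fromBlocks (Algebra.leftMulMatrix b (g 0 0)) (Algebra.leftMulMatrix b (g 0 1))
    (Algebra.leftMulMatrix b (g 1 0)) (Algebra.leftMulMatrix b (g 1 1))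
  map_one' := by
    simp
  map_mul' g h := by
    rw [fromBlocks_multiply]
    simp only [← map_mul, ← map_add, Matrix.mul_apply, Fin.sum_univ_two]

/-- multiplication by the block matrix, in coordinates. -/
theorem bm_mulVec (b : Basis J F K) (g : Matrix (Fin 2) (Fin 2) K) (x y : K) :
    bm b g *ᵥ Sum.elim (b.equivFun x) (b.equivFun y) =
      Sum.elim (b.equivFun (g 0 0 * x + g 0 1 * y)) (b.equivFun (g 1 0 * x + g 1 1 * y)) := by
  change fromBlocks _ _ _ _ *ᵥ _ = _
  rw [fromBlocks_mulVec]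
  have h : ∀ c z : K, Algebra.leftMulMatrix b c *ᵥ (b.equivFun z) = b.equivFun (c * z) := by
    intro c z
    exact Algebra.leftMulMatrix_mulVec_repr b c z
  simp only [Sum.elim_comp_inl, Sum.elim_comp_inr, h, map_add]

/-- the linear equivalence `K × K ≃ F^(J ⊕ J)`. -/
noncomputable def eKK (b : Basis J F K) : (K × K) ≃ₗ[F] (J ⊕ J → F) :=
  (b.equivFun.prodCongr b.equivFun) ≪≫ₗ (LinearEquiv.sumArrowLequivProdArrow J J F F).symm

theorem eKK_apply (b : Basis J F K) (x y : K) :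
    eKK b (x, y) = Sum.elim (b.equivFun x) (b.equivFun y) := by
  ext i; rcases i with i | i <;> rfl

theorem bm_eKK (b : Basis J F K) (g : SpecialLinearGroup (Fin 2) K) (x : K × K) :
    bm b g.1 *ᵥ eKK b x = eKK b (act F K g x) := by
  obtain ⟨x, y⟩ := x
  rw [eKK_apply, bm_mulVec, act_apply, eKK_apply]

theorem det_bm [FiniteDimensional F K] (b : Basis J F K) (g : SpecialLinearGroup (Fin 2) K) :
    (bm b g.1).det = 1 := by
  have h1 : LinearMap.det (act F K g : (K × K) →ₗ[F] (K × K)) = 1 := det_of_mem_TV (act_mem g)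
  rw [← LinearMap.det_toLin']
  have h2 : Matrix.toLin' (bm b g.1) =
      ((eKK b : (K × K) →ₗ[F] (J ⊕ J → F)) ∘ₗ (act F K g : (K × K) →ₗ[F] (K × K))) ∘ₗ
        ((eKK b).symm : (J ⊕ J → F) →ₗ[F] (K × K)) := by
    refine LinearMap.ext fun y => ?_
    obtain ⟨x, rfl⟩ := (eKK b).surjective y
    rw [Matrix.toLin'_apply, bm_eKK]
    simp
  rw [h2, LinearMap.comp_assoc]
  have h3 := LinearMap.det_conj (act F K g : (K × K) →ₗ[F] (K × K)) (eKK b)
  rw [h3, h1]

/-- `SL₂(K) → SL(J ⊕ J, F)`. -/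
noncomputable def sl2K [FiniteDimensional F K] (b : Basis J F K) :
    SpecialLinearGroup (Fin 2) K →* SpecialLinearGroup (J ⊕ J) F where
  toFun g := ⟨bm b g.1, det_bm b g⟩
  map_one' := Subtype.ext (map_one (bm b))
  map_mul' g h := Subtype.ext (map_mul (bm b) _ _)

theorem sl2K_lo [FiniteDimensional F K] (b : Basis J F K) (c : K) :
    sl2K b (lo c) = low (Algebra.leftMulMatrix b c) := by
  apply Subtype.ext
  change fromBlocks _ _ _ _ = fromBlocks _ _ _ _
  simp [lo]

variable {κ : Type w} [Fintype κ] [DecidableEq κ]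

/-- the splitting of `F^((J ⊕ J) ⊕ κ)`. -/
noncomputable def eB (b : Basis J F K) : ((K × K) × (κ → F)) ≃ₗ[F] ((J ⊕ J) ⊕ κ → F) :=
  ((eKK b).prodCongr (LinearEquiv.refl F (κ → F))) ≪≫ₗ
    (LinearEquiv.sumArrowLequivProdArrow (J ⊕ J) κ F F).symm

theorem eB_apply (b : Basis J F K) (x : K × K) (y : κ → F) :
    eB b (x, y) = Sum.elim (eKK b x) y := by
  ext i; rcases i with i | i <;> rfl

theorem toSL_bh [FiniteDimensional F K] (b : Basis J F K) (g : SpecialLinearGroup (Fin 2) K) :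
    toSL (bh (eB (κ := κ) b) (actT F K g)) = blk (sl2K b g) := by
  apply Subtype.ext
  refine Matrix.ext_of_mulVec_single fun i => ?_
  obtain ⟨⟨x, y⟩, hxy⟩ := (eB (κ := κ) b).surjective (Pi.single i 1)
  rw [← hxy, toSL_mulVec, bh_coe, bhE_apply, LinearEquiv.symm_apply_apply, eB_apply, eB_apply]
  change Sum.elim (eKK b (act F K g x)) y = fromBlocks (bm b g.1) 0 0 1 *ᵥ Sum.elim (eKK b x) y
  rw [fromBlocks_mulVec]
  simp [bm_eKK]

variable {G : Type*} [Group G] {Ω : Type*} [MulAction G Ω]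

/-- **The bound for the block `SL₂(K)`, matrix form.** -/
theorem mat_bound [Finite F] [Finite Ω] [Finite K] [FiniteDimensional F K] {B β : ℝ} (hB : 0 ≤ B)
    (hβ0 : 0 < β) (hβ1 : β ≤ 1) (hβq : 1 / (Nat.card F : ℝ) ≤ β ^ 64)
    (b : Basis J F K) (hJ : 2 ≤ Fintype.card J)
    (ψ : SpecialLinearGroup ((J ⊕ J) ⊕ κ) F →* G) (hn : 8 ≤ Fintype.card ((J ⊕ J) ⊕ κ))
    (htop : fpr Ω (Set.range ψ) ≤ B * β ^ (8 * Fintype.card ((J ⊕ J) ⊕ κ))) :
    fpr Ω (Set.range (ψ.comp (blk.comp (sl2K b)))) ≤ (B + 7) * β ^ Fintype.card J := by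
  have hk : finrank F K = Fintype.card J := Module.finrank_eq_card_basis b
  let _ : MulAction (TV F ((J ⊕ J) ⊕ κ → F)) Ω := MulAction.compHom Ω (ψ.comp toSL)
  have hfin : finrank F ((J ⊕ J) ⊕ κ → F) = Fintype.card ((J ⊕ J) ⊕ κ) := Module.finrank_fintype_fun_eq_card F
  have h := field_bound (F := F) (V := (J ⊕ J) ⊕ κ → F) (Ω := Ω) hB hβ0 hβ1 hβq (by rw [hfin]; exact hn)
    (by
      rw [fpr_comp (ψ.comp toSL), hfin, Set.image_univ]
      have : Set.range (ψ.comp (toSL (F := F) (ι := (J ⊕ J) ⊕ κ))) = Set.range ψ := by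
        ext y
        constructor
        · rintro ⟨x, rfl⟩; exact ⟨_, rfl⟩
        · rintro ⟨x, rfl⟩
          obtain ⟨z, rfl⟩ := toSL_surjective x
          exact ⟨z, rfl⟩
      rw [this]; exact htop) (K := K) (by omega) (eB b)
  rw [fpr_comp (ψ.comp toSL), hk, ← Set.range_comp] at h
  have h2 : Set.range (⇑(ψ.comp toSL) ∘ ⇑((bh (eB (κ := κ) b)).comp (actT F K))) =
      Set.range (ψ.comp (blk.comp (sl2K b))) := by
    congr 1
    funext g
    change ψ (toSL (bh (eB (κ := κ) b) (actT F K g))) = ψ (blk (sl2K b g))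
    rw [toSL_bh]
  rw [h2] at h
  exact h

end sl2K

section slm

variable {F : Type u} [Field F]
variable {J κ : Type w} [Fintype J] [DecidableEq J] [Fintype κ] [DecidableEq κ]

/-- the splitting `F^(J ⊕ κ)`. -/
def eS : ((J → F) × (κ → F)) ≃ₗ[F] (J ⊕ κ → F) := (LinearEquiv.sumArrowLequivProdArrow J κ F F).symm

theorem eS_apply (x : J → F) (y : κ → F) : (eS (F := F) (J := J) (κ := κ)) (x, y) = Sum.elim x y := by
  ext i; rcases i with i | i <;> rfl

theorem toSL_bh_slm (g : TV F (J → F)) :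
    toSL (bh (eS (F := F) (J := J) (κ := κ)) g) = blk (toSL g) := by
  apply Subtype.ext
  refine Matrix.ext_of_mulVec_single fun i => ?_
  obtain ⟨⟨x, y⟩, hxy⟩ := (eS (F := F) (J := J) (κ := κ)).surjective (Pi.single i 1)
  rw [← hxy, toSL_mulVec, bh_coe, bhE_apply, LinearEquiv.symm_apply_apply, eS_apply, eS_apply]
  change Sum.elim ((g : (J → F) ≃ₗ[F] (J → F)) x) y = fromBlocks (toSL g).1 0 0 1 *ᵥ Sum.elim x y
  rw [fromBlocks_mulVec, ← toSL_mulVec]
  simp

variable {G : Type*} [Group G] {Ω : Type*} [MulAction G Ω]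

/-- **The bound for the block `SL_m`, matrix form.** -/
theorem mat_bound_slm [Finite F] [Finite Ω] {B β : ℝ} (hB : 0 ≤ B)
    (hβ0 : 0 < β) (hβ1 : β ≤ 1) (hβq : 1 / (Nat.card F : ℝ) ≤ β ^ 64) (hJ : 3 ≤ Fintype.card J)
    (ψ : SpecialLinearGroup (J ⊕ κ) F →* G) (hn : 8 ≤ Fintype.card (J ⊕ κ))
    (htop : fpr Ω (Set.range ψ) ≤ B * β ^ (8 * Fintype.card (J ⊕ κ))) :
    fpr Ω (Set.range (ψ.comp blk)) ≤ (B + 6) * β ^ Fintype.card J := by
  let _ : MulAction (TV F (J ⊕ κ → F)) Ω := MulAction.compHom Ω (ψ.comp toSL)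
  have hfin : finrank F (J ⊕ κ → F) = Fintype.card (J ⊕ κ) := Module.finrank_fintype_fun_eq_card F
  have hfinJ : finrank F (J → F) = Fintype.card J := Module.finrank_fintype_fun_eq_card F
  have h := (chain (F := F) (V := J ⊕ κ → F) (Ω := Ω) hB hβ0 hβ1 hβq (by rw [hfin]; exact hn)
    (by
      rw [fpr_comp (ψ.comp toSL), hfin, Set.image_univ]
      have : Set.range (ψ.comp (toSL (F := F) (ι := J ⊕ κ))) = Set.range ψ := by
        ext y
        constructor
        · rintro ⟨x, rfl⟩; exact ⟨_, rfl⟩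
        · rintro ⟨x, rfl⟩
          obtain ⟨z, rfl⟩ := toSL_surjective x
          exact ⟨z, rfl⟩
      rw [this]; exact htop) (Fintype.card J) hJ (by rw [hfin, Fintype.card_sum]; omega)).apply
      (eS (F := F) (J := J) (κ := κ)) hfinJ
  rw [← fpr_range_bh, fpr_comp (ψ.comp toSL), ← Set.range_comp] at h
  have h2 : Set.range (⇑(ψ.comp toSL) ∘ ⇑(bh (eS (F := F) (J := J) (κ := κ)))) =
      Set.range (ψ.comp blk) := by
    ext y
    constructor
    · rintro ⟨x, rfl⟩
      refine ⟨toSL x, ?_⟩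
      change ψ (blk (toSL x)) = ψ (toSL (bh eS x))
      rw [toSL_bh_slm]
    · rintro ⟨x, rfl⟩
      obtain ⟨z, rfl⟩ := toSL_surjective x
      refine ⟨z, ?_⟩
      change ψ (toSL (bh eS z)) = ψ (blk (toSL z))
      rw [toSL_bh_slm]
  rw [h2] at h
  exact h

end slm

end Cfsg.Agent.H917.FP
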