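import Cfsg.Agent.H917.FP.Chr
import Cfsg.Agent.H917.FP.Hom
import Cfsg.Agent.S2299
import Cfsg.Agent.S2300
import Cfsg.Agent.H259.NatMod

/-!
STEP 2 of S5717: the noncentral elements of `SL₂(K)`.
-/

set_option autoImplicit false

namespace Cfsg.Agent.H917.FP

open Cfsg Cfsg.Agent.H514.DP Matrix

universe u v

section

variable {K : Type u} [Field K] [Fintype K]

theorem minDeg_sl2 (h4 : 4 ≤ Fintype.card K) :
    MinDeg (SpecialLinearGroup (Fin 2) K) ((Fintype.card K - 1) / 2) := by
  intro k ρ hρ hk
  rcases Nat.even_or_odd (Fintype.card K) with he | ho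
  · have : CharP K 2 := by
      obtain ⟨p, hp⟩ := CharP.exists K
      have hpp : p.Prime := CharP.char_is_prime K p
      have h1 : 2 ∣ Fintype.card K := he.two_dvd
      obtain ⟨n, -, hn⟩ := FiniteField.card K p
      rw [hn] at h1
      have h2 := (Nat.prime_dvd_prime_iff_eq Nat.prime_two hpp).mp (Nat.prime_two.dvd_of_dvd_pow h1)
      rw [h2]; exact hp
    have h1 := (S2300.result (F := K)).1 ρ.character ⟨k, ρ, hρ, rfl⟩
    have h2 : ρ.character 1 = (k : ℂ) := by
      rw [Representation.char_one, Module.finrank_fin_fun]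
    rw [h2] at h1
    rcases h1 with h | h | h | h
    · have : k = 1 := by exact_mod_cast h
      omega
    · have h' : ((k + 1 : ℕ) : ℂ) = (Fintype.card K : ℂ) := by
        push_cast
        rw [h]; ring
      have : k + 1 = Fintype.card K := by exact_mod_cast h'
      omega
    · have : k = Fintype.card K := by exact_mod_cast h
      omega
    · have : k = Fintype.card K + 1 := by exact_mod_cast h
      omega
  · have h1 := (S2299.result ho).1 ρ.character ⟨k, ρ, hρ, rfl⟩
    have h2 : ρ.character 1 = (k : ℂ) := by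
      rw [Representation.char_one, Module.finrank_fin_fun]
    rw [h2] at h1
    rcases h1 with h | h | h | h | h | h
    · have : k = 1 := by exact_mod_cast h
      omega
    · have : k = Fintype.card K := by exact_mod_cast h
      omega
    · have : k = Fintype.card K + 1 := by exact_mod_cast h
      omega
    · have h' : ((k + 1 : ℕ) : ℂ) = (Fintype.card K : ℂ) := by
        push_cast
        rw [h]; ring
      have : k + 1 = Fintype.card K := by exact_mod_cast h'
      omega
    · have : k = (Fintype.card K + 1) / 2 := by exact_mod_cast h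
      omega
    · have : k = (Fintype.card K - 1) / 2 := by exact_mod_cast h
      omega

/-- the centralizer of a noncentral element. -/
theorem card_centralizer_sl2 {z : SpecialLinearGroup (Fin 2) K}
    (hz : z ∉ Subgroup.center (SpecialLinearGroup (Fin 2) K)) :
    Nat.card (Subgroup.centralizer ({z} : Set (SpecialLinearGroup (Fin 2) K))) ≤
      2 * Fintype.card K := by
  classical
  -- every commuting matrix is `a + b z`
  have key : ∀ g : SpecialLinearGroup (Fin 2) K, g * z = z * g →
      ∃ a b : K, g.1 = a • (1 : Matrix (Fin 2) (Fin 2) K) + b • z.1 := by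
    intro g hg
    have hm : g.1 * z.1 = z.1 * g.1 := congrArg Subtype.val hg
    have e00 := congrFun (congrFun hm 0) 0
    have e01 := congrFun (congrFun hm 0) 1
    have e10 := congrFun (congrFun hm 1) 0
    simp only [Matrix.mul_apply, Fin.sum_univ_two] at e00 e01 e10
    by_cases h01 : z.1 0 1 = 0
    · by_cases h10 : z.1 1 0 = 0
      · -- diagonal, not scalar
        have hd : z.1 0 0 ≠ z.1 1 1 := by
          intro hd
          apply hz
          rw [Subgroup.mem_center_iff]
          intro y
          apply Subtype.ext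
          change y.1 * z.1 = z.1 * y.1
          ext i j
          fin_cases i <;> fin_cases j <;> simp [Matrix.mul_apply, Fin.sum_univ_two, h01, h10, hd, mul_comm]
        have hd' : z.1 0 0 - z.1 1 1 ≠ 0 := sub_ne_zero.mpr hd
        have g01 : g.1 0 1 = 0 := by
          rw [h01] at e01
          have : (z.1 0 0 - z.1 1 1) * g.1 0 1 = 0 := by linear_combination -e01
          exact (mul_eq_zero.mp this).resolve_left hd'
        have g10 : g.1 1 0 = 0 := by
          rw [h10] at e10
          have : (z.1 0 0 - z.1 1 1) * g.1 1 0 = 0 := by linear_combination e10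
          exact (mul_eq_zero.mp this).resolve_left hd'
        refine ⟨g.1 0 0 - (g.1 0 0 - g.1 1 1) / (z.1 0 0 - z.1 1 1) * z.1 0 0,
          (g.1 0 0 - g.1 1 1) / (z.1 0 0 - z.1 1 1), ?_⟩
        ext i j
        fin_cases i <;> fin_cases j
        · simp
        · simp [g01, h01]
        · simp [g10, h10]
        · simp only [Fin.mk_one, Matrix.add_apply, Matrix.smul_apply, Matrix.one_apply_eq, smul_eq_mul, mul_one]
          field_simp
          ring
      · -- `z 1 0 ≠ 0`
        refine ⟨g.1 0 0 - g.1 1 0 / z.1 1 0 * z.1 0 0, g.1 1 0 / z.1 1 0, ?_⟩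
        have g01 : g.1 0 1 = 0 := by
          rw [h01] at e00
          have : z.1 1 0 * g.1 0 1 = 0 := by linear_combination e00
          exact (mul_eq_zero.mp this).resolve_left h10
        ext i j
        fin_cases i <;> fin_cases j
        · simp
        · simp [g01, h01]
        · simp only [Fin.mk_one, Fin.zero_eta, Matrix.add_apply, Matrix.smul_apply, smul_eq_mul]
          field_simp
          simp
        · simp only [Fin.mk_one, Matrix.add_apply, Matrix.smul_apply, Matrix.one_apply_eq, smul_eq_mul, mul_one]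
          field_simp
          linear_combination e10
    · -- `z 0 1 ≠ 0`
      refine ⟨g.1 0 0 - g.1 0 1 / z.1 0 1 * z.1 0 0, g.1 0 1 / z.1 0 1, ?_⟩
      ext i j
      fin_cases i <;> fin_cases j
      · simp
      · simp only [Fin.mk_one, Fin.zero_eta, Matrix.add_apply, Matrix.smul_apply, smul_eq_mul]
        field_simp
        simp
      · simp only [Fin.mk_one, Fin.zero_eta, Matrix.add_apply, Matrix.smul_apply, smul_eq_mul]
        field_simp
        simp
        linear_combination -e00
      · simp only [Fin.mk_one, Matrix.add_apply, Matrix.smul_apply, Matrix.one_apply_eq, smul_eq_mul, mul_one]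
        field_simp
        linear_combination -e01
  -- the determinant is a monic quadratic in `a`
  set C := Subgroup.centralizer ({z} : Set (SpecialLinearGroup (Fin 2) K)) with hC
  have hcomm : ∀ g : C, g.1 * z = z * g.1 := fun g => (Subgroup.mem_centralizer_singleton_iff.mp g.2)
  choose a b hab using fun g : C => key g.1 (hcomm g)
  -- the map to `b` has fibres of size at most two
  have hfib : ∀ t : K, Nat.card {g : C // b g = t} ≤ 2 := by
    intro t
    have hinj : Function.Injective (fun g : {g : C // b g = t} => a g.1) := by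
      intro g h hgh
      apply Subtype.ext
      apply Subtype.ext
      apply Subtype.ext
      have hgh' : a g.1 = a h.1 := hgh
      rw [hab g.1, hab h.1, g.2, h.2, hgh']
    let P : Polynomial K := Polynomial.X ^ 2 + Polynomial.C (t * (z.1 0 0 + z.1 1 1)) * Polynomial.X +
      Polynomial.C (t ^ 2 - 1)
    have hP : P.natDegree = 2 := by
      change (Polynomial.X ^ 2 + Polynomial.C (t * (z.1 0 0 + z.1 1 1)) * Polynomial.X +
        Polynomial.C (t ^ 2 - 1)).natDegree = 2
      compute_degree!
    have hP0 : P ≠ 0 := fun h => by rw [h] at hP; simp at hP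
    have hroot : ∀ g : {g : C // b g = t}, a g.1 ∈ P.roots.toFinset := by
      intro g
      rw [Multiset.mem_toFinset, Polynomial.mem_roots hP0, Polynomial.IsRoot.def]
      have h1 := g.1.1.2
      rw [hab g.1, g.2, Matrix.det_fin_two] at h1
      have h2 := z.2
      rw [Matrix.det_fin_two] at h2
      simp only [Matrix.add_apply, Matrix.smul_apply, smul_eq_mul, Matrix.one_apply_eq, mul_one,
        Matrix.one_apply_ne (show (0 : Fin 2) ≠ 1 by decide),
        Matrix.one_apply_ne (show (1 : Fin 2) ≠ 0 by decide), mul_zero, zero_add] at h1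
      simp only [P, Polynomial.eval_add, Polynomial.eval_mul, Polynomial.eval_pow, Polynomial.eval_X,
        Polynomial.eval_C]
      linear_combination h1 - t ^ 2 * h2
    calc Nat.card {g : C // b g = t} ≤ Nat.card P.roots.toFinset :=
          Nat.card_le_card_of_injective (fun g => (⟨a g.1, hroot g⟩ : P.roots.toFinset))
            (fun g h hgh => hinj (congrArg Subtype.val hgh))
      _ = P.roots.toFinset.card := by rw [Nat.card_eq_fintype_card, Fintype.card_coe]
      _ ≤ P.natDegree := (Multiset.toFinset_card_le _).trans (Polynomial.card_roots' _)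
      _ = 2 := hP
  have hsum : Nat.card C = ∑ t : K, Nat.card {g : C // b g = t} := by
    have := Fintype.ofFinite C
    rw [Nat.card_eq_fintype_card, ← Finset.card_univ,
      Finset.card_eq_sum_card_fiberwise (f := b) (t := Finset.univ) (fun _ _ => Finset.mem_univ _)]
    refine Finset.sum_congr rfl fun t _ => ?_
    rw [Nat.card_eq_fintype_card, Fintype.card_subtype]
  rw [hsum]
  calc ∑ t : K, Nat.card {g : C // b g = t} ≤ ∑ _t : K, 2 := Finset.sum_le_sum fun t _ => hfib t
    _ = 2 * Fintype.card K := by rw [Finset.sum_const, Finset.card_univ, smul_eq_mul, mul_comm]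

/-- **STEP 2.** -/
theorem fpr_sl2 (h4 : 4 ≤ Fintype.card K) {Ω : Type*} [MulAction (SpecialLinearGroup (Fin 2) K) Ω] [Finite Ω]
    {z : SpecialLinearGroup (Fin 2) K}
    (hz : z ∉ Subgroup.center (SpecialLinearGroup (Fin 2) K)) :
    fpr Ω {z} ≤ fpr Ω (Set.univ : Set (SpecialLinearGroup (Fin 2) K)) + 7 / √(Fintype.card K : ℝ) := by
  set Q := Fintype.card K with hQ
  have hd0 : 0 < (Q - 1) / 2 := by omega
  have h1 := fpr_le_char (Ω := Ω) (Cfsg.Agent.H259.NatMod.commutator_eq_top (by omega)) hd0
    (minDeg_sl2 h4) z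
  have hQR : (4 : ℝ) ≤ (Q : ℝ) := by exact_mod_cast h4
  have hdR : ((Q : ℝ) - 2) / 2 ≤ (((Q - 1) / 2 : ℕ) : ℝ) := by
    have h2 : Q ≤ 2 * ((Q - 1) / 2) + 2 := by omega
    have h3 : (Q : ℝ) ≤ 2 * (((Q - 1) / 2 : ℕ) : ℝ) + 2 := by exact_mod_cast h2
    linarith
  set s := √(Q : ℝ) with hs
  have hs2 : s ^ 2 = Q := Real.sq_sqrt (by linarith)
  have hs0 : 2 ≤ s := by
    rw [hs]
    exact Real.le_sqrt_of_sq_le (by linarith)
  have hd' : (Q : ℝ) / 4 ≤ (((Q - 1) / 2 : ℕ) : ℝ) := by linarith
  -- first term
  have t1 : 1 / ((((Q - 1) / 2 : ℕ) : ℝ) + 1) ≤ 1 / s := by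
    apply one_div_le_one_div_of_le (by linarith)
    nlinarith
  -- second term
  have t2 : √(Nat.card (Subgroup.centralizer ({z} : Set (SpecialLinearGroup (Fin 2) K))) : ℝ) /
      (((Q - 1) / 2 : ℕ) : ℝ) ≤ 6 / s := by
    have h2 : √(Nat.card (Subgroup.centralizer ({z} : Set (SpecialLinearGroup (Fin 2) K))) : ℝ) ≤ 3 / 2 * s := by
      apply Real.sqrt_le_iff.mpr
      refine ⟨by linarith, ?_⟩
      have h3 : (Nat.card (Subgroup.centralizer ({z} : Set (SpecialLinearGroup (Fin 2) K))) : ℝ) ≤ 2 * Q := by
        exact_mod_cast card_centralizer_sl2 hz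
      nlinarith
    have hpos : 0 < (((Q - 1) / 2 : ℕ) : ℝ) := by exact_mod_cast hd0
    rw [div_le_div_iff₀ hpos (by linarith)]
    have h5 : √(Nat.card (Subgroup.centralizer ({z} : Set (SpecialLinearGroup (Fin 2) K))) : ℝ) * s ≤
        3 / 2 * s * s := mul_le_mul_of_nonneg_right h2 (by linarith)
    nlinarith
  have t3 : 7 / s = 1 / s + 6 / s := by ring
  rw [t3]
  linarith

/-- STEP 2 for a homomorphism. -/
theorem fpr_sl2_hom (h4 : 4 ≤ Fintype.card K) {G : Type*} [Group G] {Ω : Type*} [MulAction G Ω] [Finite Ω]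
    (φ : SpecialLinearGroup (Fin 2) K →* G) {z : SpecialLinearGroup (Fin 2) K}
    (hz : z ∉ Subgroup.center (SpecialLinearGroup (Fin 2) K)) :
    fpr Ω {φ z} ≤ fpr Ω (Set.range φ) + 7 / √(Fintype.card K : ℝ) := by
  let _ : MulAction (SpecialLinearGroup (Fin 2) K) Ω := MulAction.compHom Ω φ
  have h := fpr_sl2 h4 (Ω := Ω) hz
  rw [fpr_comp φ, fpr_comp φ, Set.image_singleton, Set.image_univ] at h
  exact h

end

end Cfsg.Agent.H917.FP
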