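import Cfsg.Agent.H917.FP.Steps
import Cfsg.Agent.H917.CJ.Frame

/-!
The chain of doubling steps (S5717).
-/

set_option autoImplicit false

namespace Cfsg.Agent.H917.FP

open Module
open LinearEquiv (transvection)

universe u v w x

section Range

variable {F : Type u} [Field F] {V : Type v} [AddCommGroup V] [Module F V]
variable {A : Type*} {M : Type*} [AddCommGroup A] [Module F A] [AddCommGroup M] [Module F M]
variable {A' : Type*} {M' : Type*} [AddCommGroup A'] [Module F A'] [AddCommGroup M'] [Module F M']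

/-- the transvections of the block. -/
def bset (e : (A × M) ≃ₗ[F] V) : Set (TV F V) :=
  {t | ∃ (a : A) (f : Dual F A) (h : f a = 0), t = bh e (tt h)}

theorem closure_bset (e : (A × M) ≃ₗ[F] V) : Subgroup.closure (bset e) = (bh e).range := by
  apply le_antisymm
  · rw [Subgroup.closure_le]
    rintro _ ⟨a, f, h, rfl⟩
    exact ⟨_, rfl⟩
  · have h1 : (Subgroup.closure (bset e)).comap (bh e) = ⊤ := by
      refine eq_top_of_has fun v f hf => ?_
      exact Subgroup.subset_closure ⟨v, f, hf, rfl⟩
    rintro _ ⟨x, rfl⟩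
    have : x ∈ (Subgroup.closure (bset e)).comap (bh e) := by rw [h1]; trivial
    exact this

theorem fpr_range_bh (Ω : Type*) [MulAction (TV F V) Ω] (e : (A × M) ≃ₗ[F] V) :
    fpr Ω (Set.range (bh e)) = fpr Ω (bset e) := by
  rw [← fpr_closure Ω (bset e), closure_bset]
  rfl

/-- comparison of two blocks. -/
theorem bset_subset (e : (A × M) ≃ₗ[F] V) (e' : (A' × M') ≃ₗ[F] V) (i : A' →ₗ[F] A) (π : A →ₗ[F] A')
    (hi : ∀ a, e' (a, 0) = e (i a, 0)) (hπ : ∀ x, (e'.symm x).1 = π (e.symm x).1) :
    bset e' ⊆ bset e := by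
  rintro _ ⟨a, f, h, rfl⟩
  have h1 : π (i a) = a := by
    have := hπ (e' (a, 0))
    rw [e'.symm_apply_apply, hi, e.symm_apply_apply] at this
    exact this.symm
  have h2 : (f ∘ₗ π) (i a) = 0 := by
    rw [LinearMap.comp_apply, h1]; exact h
  refine ⟨i a, f ∘ₗ π, h2, ?_⟩
  rw [bh_tt, bh_tt]
  apply Subtype.ext
  refine LinearEquiv.ext fun x => ?_
  change transvection (lf_zero e' h) x = transvection (lf_zero e h2) x
  rw [tv_apply, tv_apply, lf_apply, lf_apply, hπ x, hi a]
  rfl

end Range

theorem le_of_sq_le_sq' {a b : ℝ} (h : a ^ 2 ≤ b ^ 2) (hb : 0 ≤ b) : a ≤ b :=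
  le_of_abs_le (abs_le_of_sq_le_sq h hb)

theorem exists_sub (F : Type u) [Field F] (V : Type v) [AddCommGroup V] [Module F V]
    [FiniteDimensional F V] {m : ℕ} (hm : m ≤ finrank F V) :
    ∃ U : Submodule F V, finrank F U = m := by
  set b := Module.finBasis F V
  refine ⟨Submodule.span F (Set.range (b ∘ Fin.castLE hm)), ?_⟩
  rw [finrank_span_eq_card (b.linearIndependent.comp _ (Fin.castLE_injective hm)), Fintype.card_fin]

section Bd

variable (F : Type u) [Field F] (V : Type v) [AddCommGroup V] [Module F V]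
variable (Ω : Type x) [MulAction (TV F V) Ω]

/-- the `m`-dimensional blocks have fixed point ratio at most `δ`. -/
def Bd (m : ℕ) (δ : ℝ) : Prop :=
  ∀ (U W : Submodule F V) (h : IsCompl U W), finrank F U = m →
    fpr Ω (bset (Submodule.prodEquivOfIsCompl U W h)) ≤ δ

variable {F V Ω}

theorem Bd.mono {m : ℕ} {δ δ' : ℝ} (h : Bd F V Ω m δ) (hδ : δ ≤ δ') : Bd F V Ω m δ' :=
  fun U W hc hm => (h U W hc hm).trans hδ

/-- transfer to arbitrary splittings. -/
theorem Bd.apply {m : ℕ} {δ : ℝ} [Finite Ω] (h : Bd F V Ω m δ) {A : Type*} {M : Type*}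
    [AddCommGroup A] [Module F A] [AddCommGroup M] [Module F M] (e : (A × M) ≃ₗ[F] V)
    (hm : finrank F A = m) : fpr Ω (bset e) ≤ δ := by
  set U : Submodule F V := LinearMap.range ((e : (A × M) →ₗ[F] V) ∘ₗ LinearMap.inl F A M) with hU
  set W : Submodule F V := LinearMap.range ((e : (A × M) →ₗ[F] V) ∘ₗ LinearMap.inr F A M) with hW
  have hmU : ∀ a : A, e (a, 0) ∈ U := fun a => ⟨a, rfl⟩
  have hmW : ∀ a : M, e (0, a) ∈ W := fun a => ⟨a, rfl⟩
  have hc : IsCompl U W := by
    constructor
    · rw [Submodule.disjoint_def]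
      rintro _ ⟨a, rfl⟩ ⟨b, hb⟩
      have h1 : ((0 : A), b) = (a, 0) := e.injective hb
      have h2 : a = 0 := ((Prod.ext_iff.mp h1).1).symm
      subst h2
      exact e.map_zero
    · rw [codisjoint_iff, eq_top_iff]
      intro y _
      rw [Submodule.mem_sup]
      refine ⟨e ((e.symm y).1, 0), hmU _, e (0, (e.symm y).2), hmW _, ?_⟩
      rw [← map_add]
      simp
  have hinj : Function.Injective ((e : (A × M) →ₗ[F] V) ∘ₗ LinearMap.inl F A M) := by
    intro a b hab
    have h1 : ((a, 0) : A × M) = (b, 0) := e.injective hab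
    exact (Prod.ext_iff.mp h1).1
  let α : A ≃ₗ[F] U := LinearEquiv.ofInjective _ hinj
  have hα : ∀ a, ((α a : U) : V) = e (a, 0) := fun a => rfl
  have hαs : ∀ a (h : e (a, 0) ∈ U), α.symm ⟨e (a, 0), h⟩ = a := by
    intro a h
    rw [LinearEquiv.symm_apply_eq]
    exact Subtype.ext rfl
  refine (fpr_anti Ω ?_).trans (h U W hc (by rw [← hm]; exact (LinearEquiv.finrank_eq α).symm))
  refine bset_subset e (Submodule.prodEquivOfIsCompl U W hc) (α.symm : U →ₗ[F] A)
    (α : A →ₗ[F] U) ?_ ?_
  · intro a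
    obtain ⟨a, ⟨b, rfl⟩⟩ := a
    change ((⟨e (b, 0), hmU b⟩ : U) : V) + ((0 : W) : V) = e (α.symm ⟨e (b, 0), hmU b⟩, 0)
    rw [hαs]
    simp
  · intro x
    have h1 : x = e ((e.symm x).1, 0) + e (0, (e.symm x).2) := by
      rw [← map_add]; simp
    have h2 : (Submodule.prodEquivOfIsCompl U W hc).symm x =
        (α (e.symm x).1, ⟨e (0, (e.symm x).2), hmW _⟩) := by
      rw [LinearEquiv.symm_apply_eq]
      exact h1
    rw [h2]; rfl

/-- the whole space. -/
theorem bd_top [FiniteDimensional F V] [Finite Ω] {δ : ℝ}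
    (h : fpr Ω (Set.univ : Set (TV F V)) ≤ δ) : Bd F V Ω (finrank F V) δ := by
  intro U W hc hU
  have hU1 : U = ⊤ := Submodule.eq_top_of_finrank_eq hU
  subst hU1
  have hW : W = ⊥ := by
    have := hc.disjoint
    rwa [top_disjoint] at this
  subst hW
  have : Subgroup.closure (bset (Submodule.prodEquivOfIsCompl (⊤ : Submodule F V) ⊥ hc)) = ⊤ := by
    refine eq_top_of_has fun v f hf => ?_
    apply Subgroup.subset_closure
    have h1 : (f ∘ₗ (⊤ : Submodule F V).subtype) ⟨v, trivial⟩ = 0 := hf
    refine ⟨⟨v, trivial⟩, f ∘ₗ (⊤ : Submodule F V).subtype, h1, ?_⟩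
    rw [bh_tt]
    apply Subtype.ext
    refine LinearEquiv.ext fun x => ?_
    have h2 : (Submodule.prodEquivOfIsCompl (⊤ : Submodule F V) ⊥ hc).symm x =
        (⟨x, trivial⟩, 0) := by
      rw [LinearEquiv.symm_apply_eq]
      simp
    change transvection hf x = transvection (lf_zero _ h1) x
    rw [tv_apply, tv_apply, lf_apply, h2]
    simp
  rw [fpr_univ_of_closure Ω this]
  exact h

/-- monotonicity. -/
theorem Bd.of_le [FiniteDimensional F V] [Finite Ω] {m m' : ℕ} {δ : ℝ} (h : Bd F V Ω m' δ)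
    (hm : m' ≤ m) : Bd F V Ω m δ := by
  intro U W hc hU
  -- a subspace `U'` of `U` of dimension `m'` and a complement in `U`
  obtain ⟨U', hU'⟩ : ∃ U' : Submodule F U, finrank F U' = m' :=
    exists_sub F U (by omega)
  obtain ⟨W', hW'⟩ := Submodule.exists_isCompl U'
  let c : (U' × W') ≃ₗ[F] U := Submodule.prodEquivOfIsCompl U' W' hW'
  let e := Submodule.prodEquivOfIsCompl U W hc
  let e' : (U' × (W' × W)) ≃ₗ[F] V :=
    ((LinearEquiv.prodAssoc F U' W' W).symm ≪≫ₗ (c.prodCongr (LinearEquiv.refl F W))) ≪≫ₗ e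
  refine (fpr_anti Ω ?_).trans (h.apply e' hU')
  refine bset_subset e e' U'.subtype (LinearMap.fst F U' W' ∘ₗ (c.symm : U →ₗ[F] (U' × W'))) ?_ ?_
  · intro a
    change e (c (a, 0), 0) = e (a.1, 0)
    congr 2
    change (a : U) + ((0 : W') : U) = a
    simp
  · intro x
    rfl

/-- **Doubling.** -/
theorem Bd.dbl [Finite F] [FiniteDimensional F V] [Finite Ω] {m : ℕ} {δ δ' : ℝ} (h3 : 3 ≤ m)
    (h2 : 2 * m ≤ finrank F V) (h : Bd F V Ω (2 * m) δ) (hδ' : 0 ≤ δ')
    (hle : δ + 4 / (Nat.card F : ℝ) ^ m ≤ δ' ^ 2) : Bd F V Ω m δ' := by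
  intro U W hc hU
  obtain ⟨K, _, _, _, hK⟩ := Cfsg.Agent.H917.CJ.exists_ext F m (by omega)
  have : FiniteDimensional F K := FiniteDimensional.of_finrank_pos (by omega)
  have hW : finrank F U + finrank F W = finrank F V := Submodule.finrank_add_eq_of_isCompl hc
  obtain ⟨W1, hW1⟩ := exists_sub F W (m := m) (by omega)
  obtain ⟨W2, hW2⟩ := Submodule.exists_isCompl W1
  let c : (W1 × W2) ≃ₗ[F] W := Submodule.prodEquivOfIsCompl W1 W2 hW2
  let e := Submodule.prodEquivOfIsCompl U W hc
  let α : K ≃ₗ[F] U := LinearEquiv.ofFinrankEq _ _ (by omega)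
  let β : K ≃ₗ[F] W1 := LinearEquiv.ofFinrankEq _ _ (by omega)
  let e2 : ((K × K) × W2) ≃ₗ[F] V :=
    ((LinearEquiv.prodAssoc F K K W2) ≪≫ₗ
      (α.prodCongr ((β.prodCongr (LinearEquiv.refl F W2)) ≪≫ₗ c))) ≪≫ₗ e
  let _ : MulAction (TV F (K × K)) Ω := MulAction.compHom Ω (bh e2)
  have h4 := step4 (F := F) (K := K) Ω (by omega)
  rw [fpr_comp (bh e2), fpr_comp (bh e2)] at h4
  have hK2 : (Nat.card K : ℝ) = (Nat.card F : ℝ) ^ m := by
    rw [Module.natCard_eq_pow_finrank (K := F), hK]; push_cast; rfl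
  rw [hK2] at h4
  have h5 : fpr Ω (bh e2 '' Set.univ) ≤ δ := by
    rw [Set.image_univ, fpr_range_bh]
    exact h.apply e2 (by rw [Module.finrank_prod, hK]; ring)
  have h6 : fpr Ω (bset e) ≤ fpr Ω (bh e2 '' leftT F K) := by
    apply fpr_anti
    rintro _ ⟨_, ⟨u, f, hf, rfl⟩, rfl⟩
    have hfu : f u = 0 := by simpa using hf
    have h7 : (f ∘ₗ (α.symm : U →ₗ[F] K)) (α u) = 0 := by simpa using hfu
    refine ⟨α u, f ∘ₗ (α.symm : U →ₗ[F] K), h7, ?_⟩
    rw [bh_tt, bh_tt]
    apply Subtype.ext
    refine LinearEquiv.ext fun x => ?_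
    change transvection (lf_zero e2 hf) x = transvection (lf_zero e h7) x
    rw [tv_apply, tv_apply, lf_apply, lf_apply]
    have e3 : e2 ((u, 0), 0) = e (α u, 0) := by
      change e (α u, c (β 0, 0)) = e (α u, 0)
      rw [map_zero β]
      change e (α u, c 0) = e (α u, 0)
      rw [map_zero]
    have e4 : ((e2.symm x).1).1 = α.symm (e.symm x).1 := rfl
    rw [e3, fn_apply, e4]
    simp
  have h8 : fpr Ω (bset e) ^ 2 ≤ δ' ^ 2 := by
    have h9 : fpr Ω (bset e) ^ 2 ≤ fpr Ω (bh e2 '' leftT F K) ^ 2 :=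
      pow_le_pow_left₀ (fpr_nonneg _ _) h6 2
    linarith
  exact le_of_sq_le_sq' h8 hδ'

/-- `u ↦ t_{u, ε}` on a subspace of `ker ε`. -/
def y1 (ε : Dual F V) (U : Submodule F V) (hU : ∀ u ∈ U, ε u = 0) : Multiplicative U →* TV F V where
  toFun u := tt (hU _ (Multiplicative.toAdd u).2)
  map_one' := by
    apply Subtype.ext
    refine LinearEquiv.ext fun x => ?_
    change transvection (hU _ (0 : U).2) x = x
    rw [tv_apply]; simp
  map_mul' a b := by
    apply Subtype.ext
    refine LinearEquiv.ext fun x => ?_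
    change transvection (hU _ (Multiplicative.toAdd a + Multiplicative.toAdd b).2) x =
      transvection (hU _ (Multiplicative.toAdd a).2) (transvection (hU _ (Multiplicative.toAdd b).2) x)
    rw [tv_apply, tv_apply, tv_apply, map_add, map_smul, hU _ (Multiplicative.toAdd b).2,
      Submodule.coe_add]
    simp only [smul_zero, add_zero]
    module

/-- `η ↦ t_{e, η}`, `η e = 0`. -/
def y2 (e : V) : Multiplicative (LinearMap.ker (Dual.eval F V e)) →* TV F V where
  toFun η := tt (f := (Multiplicative.toAdd η : LinearMap.ker (Dual.eval F V e)).1) (v := e)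
    (Multiplicative.toAdd η).2
  map_one' := by
    apply Subtype.ext
    refine LinearEquiv.ext fun x => ?_
    change x + ((0 : LinearMap.ker (Dual.eval F V e)).1) x • e = x
    simp
  map_mul' a b := by
    apply Subtype.ext
    refine LinearEquiv.ext fun x => ?_
    have hb : (Multiplicative.toAdd b : LinearMap.ker (Dual.eval F V e)).1 e = 0 :=
      (Multiplicative.toAdd b).2
    have ha : (Multiplicative.toAdd a : LinearMap.ker (Dual.eval F V e)).1 e = 0 :=
      (Multiplicative.toAdd a).2
    change x + ((Multiplicative.toAdd a).1 + (Multiplicative.toAdd b).1) x • e =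
      transvection ha (transvection hb x)
    rw [tv_apply, tv_apply, map_add, map_smul, ha, LinearMap.add_apply]
    simp only [smul_zero, add_zero]
    module

/-- **The hyperplane step.** -/
theorem Bd.hyp [Finite F] [FiniteDimensional F V] [Finite Ω] (hn : 4 ≤ finrank F V) {a b : ℝ}
    (ha0 : 0 ≤ a) (hb0 : 0 ≤ b)
    (ha : fpr Ω (Set.univ : Set (TV F V)) + 1 / (Nat.card F : ℝ) ^ (finrank F V - 1) ≤ a ^ 2)
    (hb : a + 1 / (Nat.card F : ℝ) ^ (finrank F V - 1) ≤ b ^ 2) :
    Bd F V Ω (finrank F V - 1) b := by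
  intro U W hc hU
  set n := finrank F V with hn'
  have hW : finrank F U + finrank F W = finrank F V := Submodule.finrank_add_eq_of_isCompl hc
  have hW1 : finrank F W = 1 := by omega
  obtain ⟨e0, he0, hW2⟩ := finrank_eq_one_iff'.mp hW1
  have he0U : (e0 : V) ∉ U := by
    intro h
    apply he0
    apply Subtype.ext
    have := Submodule.disjoint_def.mp hc.disjoint (e0 : V) h e0.2
    exact this
  obtain ⟨g, hg1, hg2⟩ := Submodule.exists_dual_map_eq_bot_of_notMem he0U inferInstance
  set ε : Dual F V := (g e0)⁻¹ • g with hε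
  have hεe : ε e0 = 1 := by simp [hε, hg1]
  have hεU : ∀ u ∈ U, ε u = 0 := by
    intro u hu
    have h1 : g u ∈ Submodule.map g U := ⟨u, hu, rfl⟩
    rw [hg2] at h1
    have h2 : g u = 0 := by simpa using h1
    simp [hε, h2]
  have hker : LinearMap.ker ε = U := by
    symm
    refine Submodule.eq_of_le_of_finrank_eq (fun u hu => hεU u hu) ?_
    have h2 := LinearMap.finrank_range_add_finrank_ker ε
    have h3 : LinearMap.range ε = ⊤ := by
      rw [LinearMap.range_eq_top]
      intro c
      exact ⟨c • (e0 : V), by rw [map_smul, hεe, smul_eq_mul, mul_one]⟩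
    rw [h3, finrank_top, finrank_self] at h2
    omega
  set e := Submodule.prodEquivOfIsCompl U W hc with hedef
  have finV : Finite V := Module.finite_of_finite F
  have finU : Finite (Multiplicative U) := inferInstanceAs (Finite U)
  have finD : Finite (Dual F V) := Module.finite_of_finite F
  have finE : Finite (Multiplicative (LinearMap.ker (Dual.eval F V (e0 : V)))) :=
    inferInstanceAs (Finite (LinearMap.ker (Dual.eval F V (e0 : V))))
  -- the intermediate set
  let AU : Set (TV F V) := {t | ∃ (v : V) (f : Dual F V) (h : f v = 0), v ∈ U ∧ t = tt h}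
  have cardU : Nat.card (Multiplicative U) = Nat.card F ^ (n - 1) := by
    rw [Nat.card_congr Multiplicative.toAdd, Module.natCard_eq_pow_finrank (K := F), hU]
  have cardE : Nat.card (Multiplicative (LinearMap.ker (Dual.eval F V (e0 : V)))) =
      Nat.card F ^ (n - 1) := by
    rw [Nat.card_congr Multiplicative.toAdd, Module.natCard_eq_pow_finrank (K := F)]
    congr 1
    have h2 := LinearMap.finrank_range_add_finrank_ker (Dual.eval F V (e0 : V))
    have h3 : LinearMap.range (Dual.eval F V (e0 : V)) = ⊤ := by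
      rw [LinearMap.range_eq_top]
      intro c
      exact ⟨c • ε, by rw [map_smul, Dual.eval_apply, hεe, smul_eq_mul, mul_one]⟩
    rw [h3, finrank_top, finrank_self, Subspace.dual_finrank_eq] at h2
    omega
  -- first half
  have s1 : fpr Ω (bset e) ^ 2 ≤ fpr Ω AU + 1 / (Nat.card F : ℝ) ^ (n - 1) := by
    have h := cs_split_hom Ω (y1 ε U hεU) (bset e) {1} (fpr Ω AU) (fpr_nonneg _ _) ?_
    · refine h.trans ?_
      rw [cardU]
      simp
    · intro y hy
      set u : U := Multiplicative.toAdd y with hu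
      have hu0 : (u : V) ≠ 0 := by
        intro h0
        apply hy
        have : u = 0 := Subtype.ext h0
        exact this
      apply fpr_closure_le
      set Hc := Subgroup.closure (bset e ∪ cj (y1 ε U hεU y) (bset e)) with hHc
      have k1 : ∀ v ∈ U, ∀ f : Dual F V, f e0 = 0 → Has (Hc.map (TV F V).subtype) v f := by
        intro v hv f hfe hfv
        refine ⟨tt hfv, ?_, rfl⟩
        apply Subgroup.subset_closure
        left
        have h7 : (f ∘ₗ U.subtype) ⟨v, hv⟩ = 0 := hfv
        refine ⟨⟨v, hv⟩, f ∘ₗ U.subtype, h7, ?_⟩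
        rw [bh_tt]
        apply Subtype.ext
        refine LinearEquiv.ext fun x => ?_
        change transvection hfv x = transvection (lf_zero e h7) x
        rw [tv_apply, tv_apply, lf_apply]
        have h8 : x = ((e.symm x).1 : V) + ((e.symm x).2 : V) := by
          have : e (e.symm x) = x := e.apply_symm_apply x
          rw [← this]
          conv_lhs => rw [hedef, Submodule.coe_prodEquivOfIsCompl']
          rw [e.symm_apply_apply]
        have h9 : f ((e.symm x).2 : V) = 0 := by
          obtain ⟨c, hc⟩ := hW2 (e.symm x).2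
          rw [← hc, Submodule.coe_smul, map_smul, hfe, smul_zero]
        have h10 : f x = f ((e.symm x).1 : V) := by
          conv_lhs => rw [h8]
          rw [map_add, h9, add_zero]
        rw [h10]
        have h11 : e ((⟨v, hv⟩ : U), (0 : W)) = v := by
          rw [hedef, Submodule.coe_prodEquivOfIsCompl']; simp
        rw [h11]
        rfl
      have k2 : ∀ v ∈ U, ∀ f : Dual F V, f (e0 + u) = 0 → Has (Hc.map (TV F V).subtype) v f := by
        intro v hv f hfe hfv
        set s : V ≃ₗ[F] V := transvection (hεU _ u.2) with hs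
        have hsv : s v = v := by rw [hs, tv_apply, hεU v hv, zero_smul, add_zero]
        have hse : s e0 = e0 + u := by rw [hs, tv_apply, hεe, one_smul]
        have h1 : (f ∘ₗ (s : V →ₗ[F] V)) e0 = 0 := by
          change f (s e0) = 0
          rw [hse]; exact hfe
        have h2 : (f ∘ₗ (s : V →ₗ[F] V)) v = 0 := by
          change f (s v) = 0
          rw [hsv]; exact hfv
        -- the element of `bset e`
        obtain ⟨t, ht, ht2⟩ : ∃ t : TV F V, t ∈ bset e ∧ (t : V ≃ₗ[F] V) = transvection h2 := by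
          have h7 : ((f ∘ₗ (s : V →ₗ[F] V)) ∘ₗ U.subtype) ⟨v, hv⟩ = 0 := h2
          refine ⟨_, ⟨⟨v, hv⟩, (f ∘ₗ (s : V →ₗ[F] V)) ∘ₗ U.subtype, h7, rfl⟩, ?_⟩
          rw [bh_tt]
          refine LinearEquiv.ext fun x => ?_
          change transvection (lf_zero e h7) x = transvection h2 x
          rw [tv_apply, tv_apply, lf_apply]
          have h8 : x = ((e.symm x).1 : V) + ((e.symm x).2 : V) := by
            have : e (e.symm x) = x := e.apply_symm_apply x
            rw [← this]
            conv_lhs => rw [hedef, Submodule.coe_prodEquivOfIsCompl']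
            rw [e.symm_apply_apply]
          have h9 : (f ∘ₗ (s : V →ₗ[F] V)) ((e.symm x).2 : V) = 0 := by
            obtain ⟨c, hc⟩ := hW2 (e.symm x).2
            rw [← hc, Submodule.coe_smul, map_smul, h1, smul_zero]
          have h10 : (f ∘ₗ (s : V →ₗ[F] V)) x = (f ∘ₗ (s : V →ₗ[F] V)) ((e.symm x).1 : V) := by
            conv_lhs => rw [h8]
            rw [map_add, h9, add_zero]
          rw [h10]
          have h11 : e ((⟨v, hv⟩ : U), (0 : W)) = v := by
            rw [hedef, Submodule.coe_prodEquivOfIsCompl']; simp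
          rw [h11]
          rfl
        refine ⟨y1 ε U hεU y * t * (y1 ε U hεU y)⁻¹, Subgroup.subset_closure (Or.inr ⟨t, ht, rfl⟩), ?_⟩
        change s * (t : V ≃ₗ[F] V) * s⁻¹ = transvection hfv
        rw [ht2]
        refine LinearEquiv.ext fun x => ?_
        have e1 : s⁻¹ x = s.symm x := rfl
        simp only [tv_apply, LinearEquiv.mul_apply, e1, map_add, map_smul, hsv,
          LinearEquiv.apply_symm_apply, LinearMap.comp_apply, LinearEquiv.coe_coe]
      rintro _ ⟨v, f, hfv, hv, rfl⟩
      have h4 := has_hyp (H := Hc.map (TV F V).subtype) hker hεe (by omega) u.2 hu0 k1 k2 v hv f hfv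
      exact (mem_map_iff (tt hfv)).mp h4
  -- second half
  have s2 : fpr Ω AU ^ 2 ≤ fpr Ω (Set.univ : Set (TV F V)) + 1 / (Nat.card F : ℝ) ^ (n - 1) := by
    have h := cs_split_hom (Y := Multiplicative (LinearMap.ker (Dual.eval F V (e0 : V)))) Ω
      (y2 (F := F) (e0 : V)) AU {1} (fpr Ω (Set.univ : Set (TV F V))) (fpr_nonneg _ _) ?_
    · refine h.trans ?_
      rw [cardE]
      simp
    · intro y hy
      set η : LinearMap.ker (Dual.eval F V (e0 : V)) := Multiplicative.toAdd y with hη
      have hη0 : η.1 ≠ 0 := by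
        intro h0
        apply hy
        have : η = 0 := Subtype.ext h0
        exact this
      have hηe : η.1 e0 = 0 := η.2
      apply le_of_eq
      apply fpr_univ_of_closure
      set Hc := Subgroup.closure (AU ∪ cj (y2 (e0 : V) y) AU) with hHc
      refine closure_eq_top_of_has fun p k => ?_
      set s : V ≃ₗ[F] V := transvection hηe with hs
      refine has_all_of_two (U₁ := U) (U₂ := U.map (s : V →ₗ[F] V)) ?_ ?_ ?_ p k
      · -- `e0` lies in the sum
        obtain ⟨v, hv, hηv⟩ : ∃ v ∈ U, η.1 v ≠ 0 := by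
          by_contra hcon
          push Not at hcon
          apply hη0
          refine LinearMap.ext fun x => ?_
          have hx : x ∈ U ⊔ W := by rw [hc.sup_eq_top]; trivial
          obtain ⟨u, hu, w, hw, rfl⟩ := Submodule.mem_sup.mp hx
          obtain ⟨c, hc⟩ := hW2 ⟨w, hw⟩
          have : w = c • (e0 : V) := by
            have := congrArg Subtype.val hc
            exact this.symm
          rw [map_add, hcon u hu, this, map_smul, hηe]
          simp
        have h1 : (e0 : V) ∈ U ⊔ U.map (s : V →ₗ[F] V) := by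
          have h2 : s v = v + η.1 v • (e0 : V) := tv_apply _ _
          have h3 : (e0 : V) = (η.1 v)⁻¹ • (s v - v) := by
            rw [h2, add_sub_cancel_left, smul_smul, inv_mul_cancel₀ hηv, one_smul]
          rw [h3]
          refine Submodule.smul_mem _ _ (Submodule.sub_mem _ ?_ ?_)
          · exact Submodule.mem_sup_right ⟨v, hv, rfl⟩
          · exact Submodule.mem_sup_left hv
        rw [eq_top_iff]
        intro x _
        have hx : x ∈ U ⊔ W := by rw [hc.sup_eq_top]; trivial
        obtain ⟨u, hu, w, hw, rfl⟩ := Submodule.mem_sup.mp hx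
        obtain ⟨c, hc⟩ := hW2 ⟨w, hw⟩
        have : w = c • (e0 : V) := by
          have := congrArg Subtype.val hc
          exact this.symm
        rw [this]
        exact Submodule.add_mem _ (Submodule.mem_sup_left hu) (Submodule.smul_mem _ _ h1)
      · intro u hu f hf
        exact ⟨tt hf, Subgroup.subset_closure (Or.inl ⟨u, f, hf, hu, rfl⟩), rfl⟩
      · rintro _ ⟨u, hu, rfl⟩ f hf
        have h2 : (f ∘ₗ (s : V →ₗ[F] V)) u = 0 := hf
        refine ⟨y2 (e0 : V) y * tt h2 * (y2 (e0 : V) y)⁻¹,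
          Subgroup.subset_closure (Or.inr ⟨tt h2, ⟨u, _, h2, hu, rfl⟩, rfl⟩), ?_⟩
        change s * transvection h2 * s⁻¹ = transvection hf
        refine LinearEquiv.ext fun x => ?_
        have e1 : s⁻¹ x = s.symm x := rfl
        simp only [tv_apply, LinearEquiv.mul_apply, e1, map_add, map_smul,
          LinearEquiv.apply_symm_apply, LinearMap.comp_apply, LinearEquiv.coe_coe]
  have s3 : fpr Ω AU ≤ a := le_of_sq_le_sq' (s2.trans ha) ha0
  exact le_of_sq_le_sq' ((s1.trans (by linarith)).trans hb) hb0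

end Bd

end Cfsg.Agent.H917.FP
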