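import Cfsg.Agent.H917.FP.Chain

/-!
The numbers of the chain of doubling steps (S5717).
-/

set_option autoImplicit false

namespace Cfsg.Agent.H917.FP

open Module

universe u v w x

variable {F : Type u} [Field F] {V : Type v} [AddCommGroup V] [Module F V]
variable {Ω : Type x} [MulAction (TV F V) Ω]

theorem inv_pow_le {q β : ℝ} (hq : 0 < q) (hβ0 : 0 < β) (hβ1 : β ≤ 1) (hβq : 1 / q ≤ β ^ 64)
    {a b : ℕ} (hab : b ≤ 64 * a) : 1 / q ^ a ≤ β ^ b := by
  have h1 : 1 / q ^ a = (1 / q) ^ a := by rw [one_div, one_div, inv_pow]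
  rw [h1]
  calc (1 / q) ^ a ≤ (β ^ 64) ^ a := pow_le_pow_left₀ (by positivity) hβq a
    _ = β ^ (64 * a) := by rw [← pow_mul]
    _ ≤ β ^ b := pow_le_pow_of_le_one hβ0.le hβ1 hab

/-- **The chain.** -/
theorem chain [Finite F] [FiniteDimensional F V] [Finite Ω] {B β : ℝ} (hB : 0 ≤ B) (hβ0 : 0 < β)
    (hβ1 : β ≤ 1) (hβq : 1 / (Nat.card F : ℝ) ≤ β ^ 64) (hn : 8 ≤ finrank F V)
    (htop : fpr Ω (Set.univ : Set (TV F V)) ≤ B * β ^ (8 * finrank F V)) :
    ∀ m, 3 ≤ m → m ≤ finrank F V → Bd F V Ω m ((B + 6) * β ^ m) := by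
  set n := finrank F V with hn'
  have hq : (0 : ℝ) < Nat.card F := by exact_mod_cast Nat.card_pos
  have hp : ∀ j : ℕ, 0 < β ^ j := fun j => pow_pos hβ0 j
  have hle : ∀ {i j : ℕ}, i ≤ j → β ^ j ≤ β ^ i := fun h => pow_le_pow_of_le_one hβ0.le hβ1 h
  have S0 : Bd F V Ω n ((B + 6) * β ^ (2 * n)) := by
    apply bd_top
    refine htop.trans ?_
    have := hle (show 2 * n ≤ 8 * n by omega)
    have h8 := hp (8 * n)
    nlinarith [mul_le_mul_of_nonneg_left this hB]
  have S1 : Bd F V Ω (n - 1) ((B + 2) * β ^ (2 * n)) := by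
    have e1 : 1 / (Nat.card F : ℝ) ^ (n - 1) ≤ β ^ (8 * n) :=
      inv_pow_le hq hβ0 hβ1 hβq (by omega)
    have e2 : 1 / (Nat.card F : ℝ) ^ (n - 1) ≤ β ^ (4 * n) :=
      inv_pow_le hq hβ0 hβ1 hβq (by omega)
    have f1 : (β ^ (4 * n)) ^ 2 = β ^ (8 * n) := by rw [← pow_mul]; congr 1; ring
    have f2 : (β ^ (2 * n)) ^ 2 = β ^ (4 * n) := by rw [← pow_mul]; congr 1; ring
    refine Bd.hyp (a := (B + 1) * β ^ (4 * n)) (b := (B + 2) * β ^ (2 * n)) (by omega)
      (by positivity) (by positivity) ?_ ?_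
    · rw [mul_pow, f1]
      have h8 := hp (8 * n)
      have h9 : (B + 1) * β ^ (8 * n) ≤ (B + 1) ^ 2 * β ^ (8 * n) :=
        mul_le_mul_of_nonneg_right (by nlinarith) h8.le
      linarith
    · rw [mul_pow, f2]
      have h8 := hp (4 * n)
      have h9 : (B + 2) * β ^ (4 * n) ≤ (B + 2) ^ 2 * β ^ (4 * n) :=
        mul_le_mul_of_nonneg_right (by nlinarith) h8.le
      linarith
  have S2 : Bd F V Ω (n / 2) ((B + 6) * β ^ n) := by
    have h2 : Bd F V Ω (2 * (n / 2)) ((B + 6) * β ^ (2 * n)) := by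
      rcases Nat.even_or_odd n with ⟨r, hr⟩ | ⟨r, hr⟩
      · have : 2 * (n / 2) = n := by omega
        rw [this]; exact S0
      · have : 2 * (n / 2) = n - 1 := by omega
        rw [this]
        refine S1.mono ?_
        have := hp (2 * n)
        nlinarith
    refine h2.dbl (by omega) (by omega) (by positivity) ?_
    have e1 : 1 / (Nat.card F : ℝ) ^ (n / 2) ≤ β ^ (2 * n) :=
      inv_pow_le hq hβ0 hβ1 hβq (by omega)
    have e2 : 4 / (Nat.card F : ℝ) ^ (n / 2) = 4 * (1 / (Nat.card F : ℝ) ^ (n / 2)) := by ring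
    have f1 : (β ^ n) ^ 2 = β ^ (2 * n) := by rw [← pow_mul]; congr 1; ring
    rw [mul_pow, f1, e2]
    have h8 := hp (2 * n)
    have h9 : (B + 10) * β ^ (2 * n) ≤ (B + 6) ^ 2 * β ^ (2 * n) :=
      mul_le_mul_of_nonneg_right (by nlinarith) h8.le
    linarith
  have key : ∀ d m, n - m = d → 3 ≤ m → m ≤ n → Bd F V Ω m ((B + 6) * β ^ m) := by
    intro d
    induction d using Nat.strong_induction_on with
    | _ d ih =>
      intro m hd h3 hm
      by_cases hm2 : n / 2 ≤ m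
      · refine (S2.of_le hm2).mono ?_
        exact mul_le_mul_of_nonneg_left (hle hm) (by linarith)
      · have h2 := ih (n - 2 * m) (by omega) (2 * m) rfl (by omega) (by omega)
        refine h2.dbl h3 (by omega) (by positivity) ?_
        have e1 : 1 / (Nat.card F : ℝ) ^ m ≤ β ^ (2 * m) :=
          inv_pow_le hq hβ0 hβ1 hβq (by omega)
        have e2 : 4 / (Nat.card F : ℝ) ^ m = 4 * (1 / (Nat.card F : ℝ) ^ m) := by ring
        have f1 : (β ^ m) ^ 2 = β ^ (2 * m) := by rw [← pow_mul]; congr 1; ring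
        rw [mul_pow, f1, e2]
        have h8 := hp (2 * m)
        have h9 : (B + 10) * β ^ (2 * m) ≤ (B + 6) ^ 2 * β ^ (2 * m) :=
          mul_le_mul_of_nonneg_right (by nlinarith) h8.le
        linarith
  exact fun m h3 hm => key _ m rfl h3 hm

/-- **The bound for `SL₂(K)`.** -/
theorem field_bound [Finite F] [FiniteDimensional F V] [Finite Ω] {B β : ℝ} (hB : 0 ≤ B)
    (hβ0 : 0 < β) (hβ1 : β ≤ 1) (hβq : 1 / (Nat.card F : ℝ) ≤ β ^ 64) (hn : 8 ≤ finrank F V)
    (htop : fpr Ω (Set.univ : Set (TV F V)) ≤ B * β ^ (8 * finrank F V))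
    {K : Type w} [Field K] [Algebra F K] [Finite K] [FiniteDimensional F K] (hk : 2 ≤ finrank F K)
    {M : Type*} [AddCommGroup M] [Module F M] (e : ((K × K) × M) ≃ₗ[F] V) :
    fpr Ω (Set.range ((bh e).comp (actT F K))) ≤ (B + 7) * β ^ finrank F K := by
  set k := finrank F K with hk'
  have hq : (0 : ℝ) < Nat.card F := by exact_mod_cast Nat.card_pos
  have hp : ∀ j : ℕ, 0 < β ^ j := fun j => pow_pos hβ0 j
  have hfin : finrank F (K × K) = 2 * k := by rw [Module.finrank_prod]; ring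
  have : FiniteDimensional F ((K × K) × M) := LinearEquiv.finiteDimensional e.symm
  have : FiniteDimensional F M :=
    FiniteDimensional.of_surjective (LinearMap.snd F (K × K) M) LinearMap.snd_surjective
  have hV : finrank F V = 2 * k + finrank F M := by
    rw [← LinearEquiv.finrank_eq e, Module.finrank_prod, hfin]
  let _ : MulAction (TV F (K × K)) Ω := MulAction.compHom Ω (bh e)
  have h4 := step3 (F := F) (K := K) Ω
  rw [fpr_comp (bh e), fpr_comp (bh e)] at h4
  have h5 : fpr Ω (bh e '' Set.univ) ≤ (B + 6) * β ^ (2 * k) := by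
    rw [Set.image_univ, fpr_range_bh]
    exact (chain hB hβ0 hβ1 hβq hn htop (2 * k) (by omega) (by omega)).apply e hfin
  have h6 : bh e '' Set.range (actT F K) = Set.range ((bh e).comp (actT F K)) := by
    rw [← Set.range_comp]; rfl
  rw [h6] at h4
  have e1 : 1 / (Nat.card F : ℝ) ^ (k - 1) ≤ β ^ (2 * k) :=
    inv_pow_le hq hβ0 hβ1 hβq (by omega)
  have f1 : (β ^ k) ^ 2 = β ^ (2 * k) := by rw [← pow_mul]; congr 1; ring
  refine le_of_sq_le_sq' ?_ (by positivity)
  rw [mul_pow, f1]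
  have h8 := hp (2 * k)
  have h9 : (B + 7) * β ^ (2 * k) ≤ (B + 7) ^ 2 * β ^ (2 * k) :=
    mul_le_mul_of_nonneg_right (by nlinarith) h8.le
  linarith

end Cfsg.Agent.H917.FP
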