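import Cfsg.Agent.H917.FP.Hom
import Cfsg.Agent.H254.BS.PartI

/-!
Doubling of the support (S5717): for `x` of support `s` and most `y` the commutator `[x, y]` has
support `2 s`.
-/

set_option autoImplicit false
set_option linter.unusedSectionVars false

namespace Cfsg.Agent.H917.FP

open Module Matrix
open Cfsg.Agent.H254.BS.PI (supp)

section Count

variable {M : Type*} [Group M] [Finite M] {X : Type*} [MulAction M X]

theorem card_move_le (a b : X) (D : ℕ) (hD : D ≤ Nat.card (MulAction.orbit M a)) :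
    Nat.card {y : M // y • a = b} * D ≤ Nat.card M := by
  by_cases h : ∃ y0 : M, y0 • a = b
  · obtain ⟨y0, hy0⟩ := h
    have e : {y : M // y • a = b} ≃ MulAction.stabilizer M a :=
      ⟨fun y => ⟨y0⁻¹ * y.1, by
        rw [MulAction.mem_stabilizer_iff, mul_smul, y.2, ← hy0, inv_smul_smul]⟩,
       fun g => ⟨y0 * g.1, by
        rw [mul_smul, MulAction.mem_stabilizer_iff.mp g.2, hy0]⟩,
       fun y => by simp, fun g => by simp⟩
    rw [Nat.card_congr e]
    have h1 := Subgroup.card_mul_index (MulAction.stabilizer M a)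
    rw [MulAction.index_stabilizer] at h1
    calc _ ≤ Nat.card (MulAction.stabilizer M a) * Nat.card (MulAction.orbit M a) :=
          Nat.mul_le_mul_left _ hD
      _ = Nat.card M := h1
  · have : IsEmpty {y : M // y • a = b} := ⟨fun y => h ⟨y.1, y.2⟩⟩
    simp

theorem count_meet (S : Set X) [Finite S] (D : ℕ)
    (hD : ∀ a ∈ S, D ≤ Nat.card (MulAction.orbit M a)) :
    Nat.card {y : M // ∃ a ∈ S, y • a ∈ S} * D ≤ Nat.card S ^ 2 * Nat.card M := by
  classical
  have := Fintype.ofFinite S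
  have := Fintype.ofFinite M
  have h1 : Nat.card {y : M // ∃ a ∈ S, y • a ∈ S} ≤
      Nat.card (Σ p : S × S, {y : M // y • (p.1 : X) = p.2}) := by
    refine Nat.card_le_card_of_injective
      (fun y => ⟨(⟨y.2.choose, y.2.choose_spec.1⟩, ⟨y.1 • y.2.choose, y.2.choose_spec.2⟩),
        ⟨y.1, rfl⟩⟩) ?_
    intro y z h
    apply Subtype.ext
    have h2 := congrArg (fun t : (Σ p : S × S, {y : M // y • (p.1 : X) = p.2}) => (t.2.1 : M)) h
    exact h2
  have h2 : Nat.card (Σ p : S × S, {y : M // y • (p.1 : X) = p.2}) =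
      ∑ p : S × S, Nat.card {y : M // y • (p.1 : X) = p.2} := Nat.card_sigma
  calc Nat.card {y : M // ∃ a ∈ S, y • a ∈ S} * D
      ≤ (∑ p : S × S, Nat.card {y : M // y • (p.1 : X) = p.2}) * D :=
        Nat.mul_le_mul_right _ (h1.trans_eq h2)
    _ = ∑ p : S × S, Nat.card {y : M // y • (p.1 : X) = p.2} * D := by rw [Finset.sum_mul]
    _ ≤ ∑ _p : S × S, Nat.card M :=
        Finset.sum_le_sum fun p _ => card_move_le _ _ _ (hD _ p.1.2)
    _ = Nat.card S ^ 2 * Nat.card M := by
        rw [Finset.sum_const, smul_eq_mul, Finset.card_univ, Fintype.card_prod,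
          ← Nat.card_eq_fintype_card, sq]

end Count

section Lin

variable {F : Type*} [Field F] {V : Type*} [AddCommGroup V] [Module F V] [FiniteDimensional F V]

theorem range_sub_of_good {P R : Module.End F V}
    (h2 : LinearMap.ker P ⊔ LinearMap.ker R = ⊤) :
    LinearMap.range (P - R) = LinearMap.range P ⊔ LinearMap.range R := by
  apply le_antisymm
  · rintro _ ⟨v, rfl⟩
    rw [LinearMap.sub_apply, sub_eq_add_neg, ← map_neg]
    exact Submodule.add_mem_sup ⟨v, rfl⟩ ⟨-v, rfl⟩
  · rw [sup_le_iff]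
    constructor
    · rintro _ ⟨v, rfl⟩
      obtain ⟨a, ha, b, hb, rfl⟩ := Submodule.mem_sup.mp (h2 ▸ Submodule.mem_top : v ∈ _)
      refine ⟨b, ?_⟩
      rw [LinearMap.sub_apply, LinearMap.mem_ker.mp hb, map_add, LinearMap.mem_ker.mp ha]
      simp
    · rintro _ ⟨v, rfl⟩
      obtain ⟨a, ha, b, hb, rfl⟩ := Submodule.mem_sup.mp (h2 ▸ Submodule.mem_top : v ∈ _)
      refine ⟨-a, ?_⟩
      rw [LinearMap.sub_apply, map_neg, map_neg, LinearMap.mem_ker.mp ha, map_add,
        LinearMap.mem_ker.mp hb]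
      simp

theorem rank_sub_of_good {P R : Module.End F V}
    (h1 : Disjoint (LinearMap.range P) (LinearMap.range R))
    (h2 : LinearMap.ker P ⊔ LinearMap.ker R = ⊤) :
    finrank F (LinearMap.range (P - R)) =
      finrank F (LinearMap.range P) + finrank F (LinearMap.range R) := by
  rw [range_sub_of_good h2]
  have h := Submodule.finrank_sup_add_finrank_inf_eq (LinearMap.range P) (LinearMap.range R)
  rw [h1.eq_bot, finrank_bot] at h
  omega

theorem rank_add_rank_ge (C : Module.End F V) {μ : F} (hμ : μ ≠ 1) :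
    finrank F V ≤ finrank F (LinearMap.range (C - 1)) +
      finrank F (LinearMap.range (C - μ • (1 : Module.End F V))) := by
  have h1 := LinearMap.finrank_range_add_finrank_ker (C - 1)
  have h2 := LinearMap.finrank_range_add_finrank_ker (C - μ • (1 : Module.End F V))
  have h3 : LinearMap.ker (C - 1) ⊓ LinearMap.ker (C - μ • (1 : Module.End F V)) = ⊥ := by
    rw [eq_bot_iff]
    rintro v ⟨ha, hb⟩
    have ha := LinearMap.mem_ker.mp ha
    have hb := LinearMap.mem_ker.mp hb
    rw [LinearMap.sub_apply, Module.End.one_apply, sub_eq_zero] at ha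
    rw [LinearMap.sub_apply, LinearMap.smul_apply, Module.End.one_apply, sub_eq_zero, ha] at hb
    have : (1 - μ) • v = 0 := by rw [sub_smul, one_smul, ← hb, sub_self]
    exact (smul_eq_zero.mp this).resolve_left (sub_ne_zero.mpr hμ.symm)
  have h4 := Submodule.finrank_sup_add_finrank_inf_eq (LinearMap.ker (C - 1))
    (LinearMap.ker (C - μ • (1 : Module.End F V)))
  rw [h3, finrank_bot] at h4
  have h5 := Submodule.finrank_le (LinearMap.ker (C - 1) ⊔ LinearMap.ker (C - μ • (1 : Module.End F V)))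
  omega

variable {M : Type*} [Group M]

/-- for good `y` the commutator `x (y x⁻¹ y⁻¹)` has `rank (· - 1) = 2 s`. -/
theorem rank_comm (ρ : M →* Module.End F V) (x y : M) (μ : F)
    (h1 : ∀ w ∈ LinearMap.range (ρ x - μ • (1 : Module.End F V)), w ≠ 0 →
      ρ y w ∉ LinearMap.range (ρ x - μ • (1 : Module.End F V)))
    (h2 : ∀ f ∈ (LinearMap.ker (ρ x - μ • (1 : Module.End F V))).dualAnnihilator, f ≠ 0 →
      f ∘ₗ ρ y⁻¹ ∉ (LinearMap.ker (ρ x - μ • (1 : Module.End F V))).dualAnnihilator) :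
    finrank F (LinearMap.range (ρ (x * (y * x⁻¹ * y⁻¹)) - 1)) =
      2 * finrank F (LinearMap.range (ρ x - μ • (1 : Module.End F V))) := by
  set P := ρ x - μ • (1 : Module.End F V) with hP
  set R := ρ y * P * ρ y⁻¹ with hR
  have hyy : ρ y * ρ y⁻¹ = 1 := by rw [← map_mul, mul_inv_cancel, map_one]
  have hyy' : ρ y⁻¹ * ρ y = 1 := by rw [← map_mul, inv_mul_cancel, map_one]
  have ey : ∀ v, ρ y (ρ y⁻¹ v) = v := fun v => by
    rw [← Module.End.mul_apply, hyy, Module.End.one_apply]
  have ey' : ∀ v, ρ y⁻¹ (ρ y v) = v := fun v => by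
    rw [← Module.End.mul_apply, hyy', Module.End.one_apply]
  have hR2 : R = ρ (y * x * y⁻¹) - μ • (1 : Module.End F V) := by
    rw [hR, hP, mul_sub, sub_mul, map_mul, map_mul, mul_smul_comm, mul_one, smul_mul_assoc, hyy]
  -- the range of `ρ z - 1`
  have hz : (ρ (x * (y * x⁻¹ * y⁻¹)) - 1) * ρ (y * x * y⁻¹) = P - R := by
    rw [sub_mul, one_mul, ← map_mul, hR2, hP]
    have : x * (y * x⁻¹ * y⁻¹) * (y * x * y⁻¹) = x := by group
    rw [this]; abel
  have hsurj : Function.Surjective (ρ (y * x * y⁻¹)) := by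
    intro v
    refine ⟨ρ (y * x * y⁻¹)⁻¹ v, ?_⟩
    rw [← Module.End.mul_apply, ← map_mul, mul_inv_cancel, map_one, Module.End.one_apply]
  have hrange : LinearMap.range (ρ (x * (y * x⁻¹ * y⁻¹)) - 1) = LinearMap.range (P - R) := by
    rw [← hz]
    have : (ρ (x * (y * x⁻¹ * y⁻¹)) - 1) * ρ (y * x * y⁻¹) =
      (ρ (x * (y * x⁻¹ * y⁻¹)) - 1) ∘ₗ ρ (y * x * y⁻¹) := rfl
    rw [this, LinearMap.range_comp, LinearMap.range_eq_top.mpr hsurj, Submodule.map_top]
  rw [hrange]
  have hRrank : finrank F (LinearMap.range R) = finrank F (LinearMap.range P) := by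
    have e : LinearMap.range R = (LinearMap.range P).map (ρ y) := by
      have : R = (ρ y ∘ₗ P) ∘ₗ ρ y⁻¹ := rfl
      rw [this, LinearMap.range_comp, LinearMap.range_eq_top.mpr
        (fun v => ⟨ρ y v, ey' v⟩), Submodule.map_top, LinearMap.range_comp]
    rw [e]
    exact (Submodule.equivMapOfInjective (ρ y)
      (Function.LeftInverse.injective ey') (LinearMap.range P)).finrank_eq.symm
  rw [rank_sub_of_good ?_ ?_, hRrank]
  · ring
  · -- disjoint ranges
    rw [Submodule.disjoint_def]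
    rintro u hu ⟨v, hv⟩
    by_contra hu0
    refine h1 (P (ρ y⁻¹ v)) ⟨_, rfl⟩ ?_ ?_
    · intro h0
      apply hu0
      rw [← hv]
      change ρ y (P (ρ y⁻¹ v)) = 0
      rw [h0, map_zero]
    · have : ρ y (P (ρ y⁻¹ v)) = u := hv
      rw [this]; exact hu
  · -- kernels
    by_contra hne
    obtain ⟨f, hf0, hf⟩ := Submodule.exists_le_ker_of_lt_top _ (lt_top_iff_ne_top.mpr hne)
    refine h2 (f ∘ₗ ρ y) ?_ ?_ ?_
    · rw [Submodule.mem_dualAnnihilator]
      intro w hw
      have : ρ y w ∈ LinearMap.ker R := by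
        rw [LinearMap.mem_ker]
        change ρ y (P (ρ y⁻¹ (ρ y w))) = 0
        rw [ey', LinearMap.mem_ker.mp hw, map_zero]
      exact LinearMap.mem_ker.mp (hf (Submodule.mem_sup_right this))
    · intro h0
      apply hf0
      ext v
      have := LinearMap.congr_fun h0 (ρ y⁻¹ v)
      rw [LinearMap.comp_apply, ey] at this
      simpa using this
    · have : (f ∘ₗ ρ y) ∘ₗ ρ y⁻¹ = f := by
        ext v
        rw [LinearMap.comp_apply, LinearMap.comp_apply, ey]
      rw [this, Submodule.mem_dualAnnihilator]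
      intro w hw
      exact LinearMap.mem_ker.mp (hf (Submodule.mem_sup_left hw))

end Lin

end Cfsg.Agent.H917.FP
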