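import Cfsg.Agent.H917.FP.Gen2
import Cfsg.Agent.H917.FP.Hom

/-!
The group `TV F V` generated by the transvections of `V`, its block subgroups, and the inequalities
of the doubling steps (S5717).
-/

set_option autoImplicit false

namespace Cfsg.Agent.H917.FP

open Module
open LinearEquiv (transvection)

universe u v w

section Def

variable (F : Type u) (V : Type v) [Field F] [AddCommGroup V] [Module F V]

/-- the group generated by the transvections. -/
def TV : Subgroup (V ≃ₗ[F] V) := Subgroup.closure (LinearEquiv.transvections F V)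

variable {F V}

theorem tv_mem {f : Dual F V} {v : V} (h : f v = 0) : transvection h ∈ TV F V :=
  Subgroup.subset_closure ⟨f, v, h, rfl⟩

/-- the transvection as an element of `TV F V`. -/
def tt {f : Dual F V} {v : V} (h : f v = 0) : TV F V := ⟨transvection h, tv_mem h⟩

/-- a subgroup of `TV F V` containing all transvections is everything. -/
theorem eq_top_of_has {H : Subgroup (TV F V)}
    (h : ∀ (v : V) (f : Dual F V) (h : f v = 0), tt h ∈ H) : H = ⊤ := by
  have h1 : TV F V ≤ H.map (TV F V).subtype := by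
    unfold TV
    rw [Subgroup.closure_le]
    rintro _ ⟨f, v, hf, rfl⟩
    exact ⟨tt hf, h v f hf, rfl⟩
  rw [eq_top_iff]
  intro x _
  obtain ⟨y, hy, hy2⟩ := h1 x.2
  have : y = x := Subtype.ext hy2
  rwa [← this]

/-- set version, for closures. -/
theorem closure_eq_top_of_has {A : Set (TV F V)}
    (h : ∀ (v : V) (f : Dual F V),
      Has ((Subgroup.closure A).map (TV F V).subtype) v f) : Subgroup.closure A = ⊤ := by
  refine eq_top_of_has fun v f hf => ?_
  obtain ⟨y, hy, hy2⟩ := h v f hf
  have : y = tt hf := Subtype.ext hy2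
  rwa [← this]

theorem mem_map_iff {A : Subgroup (TV F V)} (x : TV F V) :
    (x : V ≃ₗ[F] V) ∈ A.map (TV F V).subtype ↔ x ∈ A := by
  constructor
  · rintro ⟨y, hy, hy2⟩
    have : y = x := Subtype.ext hy2
    rwa [← this]
  · intro hx; exact ⟨x, hx, rfl⟩

end Def

section Block

variable {F : Type u} {A : Type v} {M : Type w} {V : Type*} [Field F] [AddCommGroup A] [Module F A]
  [AddCommGroup M] [Module F M] [AddCommGroup V] [Module F V]

/-- the block embedding `GL(A) → GL(V)`, `V ≅ A × M`. -/
def bhE (e : (A × M) ≃ₗ[F] V) : (A ≃ₗ[F] A) →* (V ≃ₗ[F] V) where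
  toFun g := (e.symm ≪≫ₗ (g.prodCongr (LinearEquiv.refl F M))) ≪≫ₗ e
  map_one' := by
    refine LinearEquiv.ext fun x => ?_
    change e ((1 : A ≃ₗ[F] A) (e.symm x).1, (e.symm x).2) = x
    change e ((e.symm x).1, (e.symm x).2) = x
    rw [Prod.mk.eta, e.apply_symm_apply]
  map_mul' g h := by
    refine LinearEquiv.ext fun x => ?_
    change e (g (h (e.symm x).1), (e.symm x).2) =
      e (g (e.symm (e (h (e.symm x).1, (e.symm x).2))).1,
        (e.symm (e (h (e.symm x).1, (e.symm x).2))).2)
    rw [e.symm_apply_apply]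

theorem bhE_apply (e : (A × M) ≃ₗ[F] V) (g : A ≃ₗ[F] A) (x : V) :
    bhE e g x = e (g (e.symm x).1, (e.symm x).2) := rfl

/-- the functional `f ∘ fst ∘ e⁻¹`. -/
def lf (e : (A × M) ≃ₗ[F] V) (f : Dual F A) : Dual F V :=
  (f ∘ₗ LinearMap.fst F A M) ∘ₗ (e.symm : V →ₗ[F] (A × M))

@[simp] theorem lf_apply (e : (A × M) ≃ₗ[F] V) (f : Dual F A) (x : V) :
    lf e f x = f (e.symm x).1 := rfl

theorem bhE_tv (e : (A × M) ≃ₗ[F] V) {f : Dual F A} {a : A} (h : f a = 0)
    (h' : lf e f (e (a, 0)) = 0) : bhE e (transvection h) = transvection h' := by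
  refine LinearEquiv.ext fun x => ?_
  apply e.symm.injective
  rw [bhE_apply, tv_apply, tv_apply, lf_apply, ← map_smul, map_add, LinearEquiv.symm_apply_apply,
    LinearEquiv.symm_apply_apply]
  ext <;> simp

theorem lf_zero (e : (A × M) ≃ₗ[F] V) {f : Dual F A} {a : A} (h : f a = 0) :
    lf e f (e (a, 0)) = 0 := by
  rw [lf_apply, e.symm_apply_apply]; exact h

/-- the block embedding `TV A → TV V`. -/
def bh (e : (A × M) ≃ₗ[F] V) : TV F A →* TV F V :=
  ((bhE e).comp (TV F A).subtype).codRestrict (TV F V) (by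
    intro x
    have h1 : TV F A ≤ (TV F V).comap (bhE e) := by
      unfold TV
      rw [Subgroup.closure_le]
      rintro _ ⟨f, v, hf, rfl⟩
      change bhE e (transvection hf) ∈ TV F V
      rw [bhE_tv e hf (lf_zero e hf)]
      exact tv_mem _
    exact h1 x.2)

theorem bh_coe (e : (A × M) ≃ₗ[F] V) (x : TV F A) : (bh e x : V ≃ₗ[F] V) = bhE e x := rfl

theorem bh_tt (e : (A × M) ≃ₗ[F] V) {f : Dual F A} {a : A} (h : f a = 0) :
    bh e (tt h) = tt (lf_zero e h) := Subtype.ext (bhE_tv e h (lf_zero e h))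

end Block

section Act

variable {F : Type u} {K : Type v} [Field F] [Field K] [Algebra F K]

/-- the shear `(x, y) ↦ (x + φ y, y)`. -/
def shear (φ : K →ₗ[F] K) : (K × K) ≃ₗ[F] (K × K) where
  toFun x := (x.1 + φ x.2, x.2)
  invFun x := (x.1 - φ x.2, x.2)
  map_add' x y := by
    ext
    · simp only [Prod.fst_add, Prod.snd_add, map_add]; abel
    · simp
  map_smul' c x := by
    ext
    · simp [smul_add]
    · simp
  left_inv x := by ext <;> simp
  right_inv x := by ext <;> simp

theorem shear_mem [FiniteDimensional F K] (φ : K →ₗ[F] K) : shear φ ∈ TV F (K × K) := by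
  have hadd : ∀ φ ψ : K →ₗ[F] K, shear (φ + ψ) = shear φ * shear ψ := by
    intro φ ψ
    refine LinearEquiv.ext fun x => ?_
    change (x.1 + (φ + ψ) x.2, x.2) = ((x.1 + ψ x.2) + φ x.2, x.2)
    rw [LinearMap.add_apply]
    ext
    · simp only; abel
    · rfl
  have hzero : shear (0 : K →ₗ[F] K) = 1 := by
    refine LinearEquiv.ext fun x => ?_
    change (x.1 + 0, x.2) = x
    rw [add_zero]
  set b := Module.finBasis F K
  have hφ : φ = ∑ i, (b.coord i).smulRight (φ (b i)) := by
    refine LinearMap.ext fun x => ?_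
    rw [LinearMap.sum_apply]
    conv_lhs => rw [← b.sum_repr x, map_sum]
    refine Finset.sum_congr rfl fun i _ => ?_
    rw [map_smul, LinearMap.smulRight_apply, Basis.coord_apply]
  rw [hφ]
  refine Finset.sum_induction _ (fun ψ => shear ψ ∈ TV F (K × K)) (fun φ ψ h1 h2 => ?_) ?_ ?_
  · rw [hadd]; exact (TV F (K × K)).mul_mem h1 h2
  · rw [hzero]; exact (TV F (K × K)).one_mem
  · intro i _
    have h1 : fn (0 : Dual F K) (b.coord i) (φ (b i), (0 : K)) = 0 := by simp
    have : shear ((b.coord i).smulRight (φ (b i))) = transvection h1 := by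
      refine LinearEquiv.ext fun x => ?_
      rw [tv_apply]
      change (x.1 + (b.coord i).smulRight (φ (b i)) x.2, x.2) = _
      ext <;> simp
    rw [this]
    exact tv_mem _

theorem act_up_mem [FiniteDimensional F K] (c : K) : act F K (up c) ∈ TV F (K × K) := by
  have : act F K (up c) = shear (LinearMap.mulLeft F c) := by
    refine LinearEquiv.ext fun x => ?_
    rw [act_up]; rfl
  rw [this]; exact shear_mem _

/-- `[[1, 0], [c, 1]]` -/
def lo (c : K) : Matrix.SpecialLinearGroup (Fin 2) K :=
  ⟨!![1, 0; c, 1], by rw [Matrix.det_fin_two_of]; ring⟩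

/-- the shear `(x, y) ↦ (x, y + φ x)`. -/
theorem act_lo_mem [FiniteDimensional F K] (c : K) : act F K (lo c) ∈ TV F (K × K) := by
  -- conjugate by the swap
  let s : (K × K) ≃ₗ[F] (K × K) := LinearEquiv.prodComm F K K
  have hs : TV F (K × K) ≤ (TV F (K × K)).comap (MulAut.conj s).toMonoidHom := by
    conv_lhs => unfold TV
    rw [Subgroup.closure_le]
    rintro _ ⟨f, v, hf, rfl⟩
    change s * transvection hf * s⁻¹ ∈ TV F (K × K)
    have h1 : (f ∘ₗ (s.symm : (K × K) →ₗ[F] (K × K))) (s v) = 0 := by simpa using hf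
    have : s * transvection hf * s⁻¹ = transvection h1 := by
      refine LinearEquiv.ext fun x => ?_
      have e : s⁻¹ x = s.symm x := rfl
      simp only [tv_apply, LinearEquiv.mul_apply, e, map_add, map_smul,
        LinearEquiv.apply_symm_apply, LinearMap.comp_apply, LinearEquiv.coe_coe]
    rw [this]; exact tv_mem _
  have h2 := hs (act_up_mem (F := F) c)
  have h3 : (MulAut.conj s).toMonoidHom (act F K (up c)) = act F K (lo c) := by
    refine LinearEquiv.ext fun x => ?_
    change s (act F K (up c) (s.symm x)) = _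
    rw [act_up, act_apply]
    change (x.1, x.2 + c * x.1) = _
    simp [lo, add_comm]
  rw [Subgroup.mem_comap, h3] at h2
  exact h2

theorem act_mem [FiniteDimensional F K] (g : Matrix.SpecialLinearGroup (Fin 2) K) :
    act F K g ∈ TV F (K × K) := by
  -- lower left entry nonzero
  have key : ∀ g : Matrix.SpecialLinearGroup (Fin 2) K, g.1 1 0 ≠ 0 → act F K g ∈ TV F (K × K) := by
    intro g hc
    have hdet := g.2
    rw [Matrix.det_fin_two] at hdet
    have : g = up ((g.1 0 0 - 1) / g.1 1 0) * lo (g.1 1 0) * up ((g.1 1 1 - 1) / g.1 1 0) := by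
      apply Subtype.ext
      change g.1 = !![1, (g.1 0 0 - 1) / g.1 1 0; 0, 1] * !![1, 0; g.1 1 0, 1] *
        !![1, (g.1 1 1 - 1) / g.1 1 0; 0, 1]
      rw [Matrix.mul_fin_two, Matrix.mul_fin_two]
      ext i j
      fin_cases i <;> fin_cases j
      · simp only [Fin.zero_eta, Matrix.of_apply, Matrix.cons_val', Matrix.cons_val_zero,
          Matrix.cons_val_fin_one]
        field_simp
        ring
      · simp only [Fin.zero_eta, Fin.mk_one, Matrix.of_apply, Matrix.cons_val', Matrix.cons_val_zero,
          Matrix.cons_val_one, Matrix.cons_val_fin_one]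
        field_simp
        linear_combination -hdet
      · simp
      · simp only [Fin.mk_one, Matrix.of_apply, Matrix.cons_val', Matrix.cons_val_one,
          Matrix.cons_val_fin_one]
        field_simp
        ring
    rw [this, map_mul, map_mul]
    exact (TV F (K × K)).mul_mem ((TV F (K × K)).mul_mem (act_up_mem _) (act_lo_mem _)) (act_up_mem _)
  by_cases hc : g.1 1 0 = 0
  · have hdet := g.2
    rw [Matrix.det_fin_two, hc, mul_zero, sub_zero] at hdet
    have hd : g.1 1 1 ≠ 0 := fun h => by rw [h, mul_zero] at hdet; exact zero_ne_one hdet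
    have h1 : (g * lo 1).1 1 0 ≠ 0 := by
      change (g.1 * !![1, 0; 1, 1] : Matrix (Fin 2) (Fin 2) K) 1 0 ≠ 0
      rw [Matrix.mul_apply, Fin.sum_univ_two]
      simpa [hc] using hd
    have h2 := key _ h1
    rw [map_mul] at h2
    have h3 := (TV F (K × K)).mul_mem h2 ((TV F (K × K)).inv_mem (act_lo_mem (F := F) (1 : K)))
    rwa [mul_inv_cancel_right] at h3
  · exact key g hc

/-- `SL₂(K) → TV F (K × K)`. -/
noncomputable def actT (F : Type u) (K : Type v) [Field F] [Field K] [Algebra F K] [FiniteDimensional F K] :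
    Matrix.SpecialLinearGroup (Fin 2) K →* TV F (K × K) :=
  (act F K).codRestrict (TV F (K × K)) act_mem

theorem actT_coe [FiniteDimensional F K] (g : Matrix.SpecialLinearGroup (Fin 2) K) :
    (actT F K g : (K × K) ≃ₗ[F] (K × K)) = act F K g := rfl

end Act

end Cfsg.Agent.H917.FP
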